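import Mathlib
import Cfsg.Prelude.Def_LocalEven

set_option autoImplicit false

namespace Cfsg.Agent.QdInv

open Subgroup

universe u v

/-- all `p`-subgroups are abelian -/
def AbP (p : ℕ) (G : Type*) [Group G] : Prop :=
  ∀ P : Subgroup G, IsPGroup p P → ∀ x ∈ P, ∀ y ∈ P, x * y = y * x

theorem AbP.sub {p : ℕ} {G : Type*} [Group G] (h : AbP p G) (K : Subgroup G) : AbP p ↥K := by
  intro P hP x hx y hy
  have := h (P.map K.subtype) (hP.map _) x ⟨x, hx, rfl⟩ y ⟨y, hy, rfl⟩
  exact Subtype.ext this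

theorem AbP.surj {p : ℕ} [Fact p.Prime] {G H : Type*} [Group G] [Finite G] [Group H] (h : AbP p G)
    (f : G →* H) (hf : Function.Surjective f) : AbP p H := by
  intro P hP x hx y hy
  haveI : Finite H := Finite.of_surjective f hf
  -- the preimage of `P`
  let K : Subgroup G := P.comap f
  let φ : ↥K →* ↥P := (f.comp K.subtype).codRestrict P (fun k => k.2)
  have hφ : Function.Surjective φ := by
    rintro ⟨z, hz⟩
    obtain ⟨g, rfl⟩ := hf z
    exact ⟨⟨g, hz⟩, rfl⟩
  obtain ⟨T⟩ : Nonempty (Sylow p ↥K) := inferInstance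
  have hT : (T.mapSurjective hφ : Subgroup ↥P) = ⊤ := by
    symm
    refine (T.mapSurjective hφ).is_maximal' ?_ le_top
    exact hP.of_equiv Subgroup.topEquiv.symm
  have key : ∀ z : ↥P, ∃ t ∈ (T : Subgroup ↥K), φ t = z := by
    intro z
    have hz : z ∈ (T.mapSurjective hφ : Subgroup ↥P) := by rw [hT]; trivial
    rw [Sylow.coe_mapSurjective] at hz
    exact hz
  obtain ⟨t, ht, h1⟩ := key ⟨x, hx⟩
  obtain ⟨s, hs, h2⟩ := key ⟨y, hy⟩
  have h3 := (h.sub K) T T.isPGroup' t ht s hs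
  have h4 := congrArg φ h3
  rw [map_mul, map_mul, h1, h2] at h4
  exact congrArg Subtype.val h4

theorem AbP.involves {p : ℕ} [Fact p.Prime] {G : Type u} {H : Type v} [Group G] [Finite G] [Group H]
    (h : AbP p G) (hi : Involves H G) : AbP p H := by
  obtain ⟨K, R, hR, ⟨e⟩⟩ := hi
  exact (h.sub K).surj (e.toMonoidHom.comp (QuotientGroup.mk' (R.subgroupOf K)))
    (e.surjective.comp (QuotientGroup.mk'_surjective _))

end Cfsg.Agent.QdInv
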