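import Cfsg.Agent.QdInv.Main
import Cfsg.Agent.H33.SecControl
import Cfsg.Agent.H51.ZJControl
import Cfsg.Agent.H51.GTClosed
/-!
Control of strong fusion by `N_G(W(D))`, `D` strongly closed, in groups with no `Qd(p)` section.
-/
set_option autoImplicit false
set_option linter.all false

namespace Cfsg.Agent.QdInv

open Cfsg Cfsg.Agent.H33 Cfsg.Agent.H51 Cfsg.Agent.ZJ

universe u

/-- the normalizer of `K` controls strong fusion in `S` -/
def Ctl {G : Type*} [Group G] (S K : Subgroup G) : Prop :=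
  ∀ A ≤ S, ∀ g : G, cj g A ≤ S →
    ∃ n ∈ Subgroup.normalizer (K : Set G), ∀ a ∈ A, n * a * n⁻¹ = g * a * g⁻¹

section

variable {G : Type u} [Group G] {p : ℕ} {W : ∀ (X : Type u) [Group X], Subgroup X}

theorem ctl_of_normal (S K : Subgroup G) (h : K.Normal) : Ctl S K := fun A _ g _ =>
  ⟨g, by rw [Subgroup.normalizer_eq_top_iff.2 h]; trivial, fun _ _ => rfl⟩

theorem ctl_sub (hW : IsNat W) (H R D : Subgroup G) (hRH : R ≤ H)
    (h : Ctl (R.subgroupOf H) (rel W (D.subgroupOf H))) :
    ∀ A ≤ R, ∀ y ∈ H, cj y A ≤ R →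
      ∃ n ∈ H ⊓ Subgroup.normalizer ((rel W (D ⊓ H) : Subgroup G) : Set G),
        ∀ a ∈ A, n * a * n⁻¹ = y * a * y⁻¹ := by
  intro A hA y hy hyA
  obtain ⟨m, hm, hma⟩ := h (A.subgroupOf H) (fun x hx => Subgroup.mem_subgroupOf.2 (hA hx)) ⟨y, hy⟩ (by
    rw [cj_le_iff]
    intro x hx
    exact Subgroup.mem_subgroupOf.2 (hyA (conj_mem_cj hx)))
  refine ⟨m, ⟨m.2, ?_⟩, fun a ha => congrArg Subtype.val (hma ⟨a, hRH (hA ha)⟩ ha)⟩
  have hDH : (D.subgroupOf H).map H.subtype = D ⊓ H := Subgroup.subgroupOf_map_subtype _ _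
  have hrel : (rel W (D.subgroupOf H)).map H.subtype = rel W (D ⊓ H) := by
    rw [rel_map hW _ (H.subtype_injective.injOn), hDH]
  change (m : G) ∈ Subgroup.normalizer ((rel W (D ⊓ H) : Subgroup G) : Set G)
  rw [← hrel]
  exact Subgroup.le_normalizer_map H.subtype ⟨m, hm, rfl⟩

variable [Finite G] [hp : Fact p.Prime]

theorem ctl_of_local (hW : GoodFun p W) (P : Sylow p G) {D : Subgroup G}
    (hD : IsStronglyClosed D (P : Subgroup G)) (hD1 : D ≠ ⊥)
    (hloc : ∀ T : Subgroup G, T ≤ (P : Subgroup G) → T ≠ ⊥ →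
      IsSyl p (nS (P : Subgroup G) T) (Subgroup.normalizer ((T : Subgroup G) : Set G)) →
      ∀ A ≤ nS (P : Subgroup G) T, ∀ y ∈ Subgroup.normalizer ((T : Subgroup G) : Set G),
        cj y A ≤ nS (P : Subgroup G) T →
        ∃ n ∈ Subgroup.normalizer ((T : Subgroup G) : Set G) ⊓ Subgroup.normalizer
          ((rel W (D ⊓ Subgroup.normalizer ((T : Subgroup G) : Set G)) : Subgroup G) : Set G),
          ∀ a ∈ A, n * a * n⁻¹ = y * a * y⁻¹) :
    Ctl (P : Subgroup G) (rel W D) := by
  have hwP : ∀ R : Subgroup G, R ≤ (P : Subgroup G) → R ⊓ D ≠ ⊥ → wFun W D R = rel W (R ⊓ D) := by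
    intro R hR hRD
    rw [wFun, dPart_eq hD hR, if_neg hRD]
  obtain ⟨z, hzD, hz1, hzc⟩ := exists_mem_center P hD hD1
  have hfun := isConjugacyFunctor_wFun hW D
  have h := strong_local_global P {wFun W D}
    (fun w hw => by rw [Set.mem_singleton_iff] at hw; rw [hw]; exact hfun) Set.univ
    (fun T _ _ => by
      obtain ⟨g, h1, h2⟩ := domain_fullyNormalized P T
      exact ⟨g, h1, Set.mem_univ _, h2⟩)
    (fun T _ hTP hT1 hsyl => by
      refine family_iff.2 ⟨_, hsyl, ?_⟩
      intro B hB y hy hyB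
      obtain ⟨n, hn, hna⟩ := hloc T hTP hT1 hsyl B hB y hy hyB
      set H := Subgroup.normalizer (T : Set G) with hH
      have hRD : nS (P : Subgroup G) T ⊓ D = D ⊓ H := by
        show (P : Subgroup G) ⊓ H ⊓ D = D ⊓ H
        rw [inf_assoc, inf_comm H D, ← inf_assoc, inf_eq_right.mpr hD.1]
      have hRD1 : nS (P : Subgroup G) T ⊓ D ≠ ⊥ := by
        intro h0
        apply hz1
        rw [← Subgroup.mem_bot, ← h0]
        refine ⟨⟨hD.1 hzD, ?_⟩, hzD⟩
        apply Subgroup.centralizer_le_normalizer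
        rw [Subgroup.mem_centralizer_iff]
        intro t ht
        exact (hzc t (hTP ht)).symm
      have hnB : cj n B ≤ nS (P : Subgroup G) T := by
        rw [cj_le_iff]
        intro b hb
        rw [hna b hb]
        exact hyB (conj_mem_cj hb)
      have hmem : H ⊓ Subgroup.normalizer ((wFun W D (nS (P : Subgroup G) T) : Subgroup G) : Set G) ∈
          nFam {wFun W D} H (nS (P : Subgroup G) T) := ⟨_, rfl, rfl⟩
      refine (SFc.single hmem ?_ hB hnB).congr (fun a ha => (hna a ha).symm)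
      rw [hwP _ inf_le_left hRD1, hRD]
      exact hn)
  intro A hA g hg
  have h1 := h A hA g (Subgroup.mem_top g) hg
  have hPD : (P : Subgroup G) ⊓ D = D := inf_eq_right.mpr hD.1
  obtain ⟨x, hx, hxA⟩ := exists_mem_of_SFc
    (N₀ := Subgroup.normalizer ((rel W D : Subgroup G) : Set G)) (by
      rintro N ⟨w, hw, rfl⟩
      rw [Set.mem_singleton_iff] at hw
      rw [hw, hwP _ le_rfl (by rwa [hPD]), hPD]
      exact inf_le_right) h1
  exact ⟨x, hx, fun a ha => (hxA a ha).symm⟩

theorem ctl_quotient_pprime (hW : GoodFun p W) (S : Sylow p G) {D : Subgroup G}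
    (hD : IsStronglyClosed D (S : Subgroup G))
    (N : Subgroup G) [hNn : N.Normal] (hN : (Nat.card N).Coprime p)
    (h : Ctl ((S : Subgroup G).map (QuotientGroup.mk' N)) (rel W (D.map (QuotientGroup.mk' N)))) :
    Ctl (S : Subgroup G) (rel W D) := by
  set f := QuotientGroup.mk' N with hf
  have hsurj : Function.Surjective f := QuotientGroup.mk'_surjective N
  have hker := ker_coprime hN
  intro A hA g hgA
  have h1 : cj (f g) (A.map f) ≤ (S : Subgroup G).map f := by
    rw [← map_cj]; exact Subgroup.map_mono hgA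
  obtain ⟨x', hx', hx'a⟩ := h (A.map f) (Subgroup.map_mono hA) (f g) h1
  have hinj : Set.InjOn f (D : Set G) := by
    intro x hx y hy hxy
    have h2 : f (x⁻¹ * y) = 1 := by rw [map_mul, map_inv, hxy, inv_mul_cancel]
    obtain ⟨k, hk⟩ := S.2 ⟨_, hD.1 (D.mul_mem (D.inv_mem hx) hy)⟩
    have h3 := hker _ h2 ⟨k, congrArg Subtype.val hk⟩
    rw [inv_mul_eq_one] at h3
    exact h3
  rw [← rel_map hW.nat f hinj] at hx'
  have hVS : rel W D ≤ (S : Subgroup G) := (rel_le W D).trans hD.1
  have hSV : (S : Subgroup G) ≤ Subgroup.normalizer ((rel W D : Subgroup G) : Set G) :=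
    (Cfsg.Agent.H51.IsStronglyClosed.le_normalizer hD).trans (normalizer_le_normalizer_rel hW.nat D)
  have hA' : cj x' (A.map f) ≤ (S : Subgroup G).map f := by
    rw [cj_le_iff]
    intro b hb
    rw [hx'a b hb]
    exact h1 (conj_mem_cj hb)
  obtain ⟨x, hx1, hx2, hx3⟩ := lift_pprime f S.2 hVS hSV hker (hsurj x') hx' hA hA'
  refine ⟨x, hx2, fun a ha => ?_⟩
  have h3 := hx'a (f a) ⟨a, ha, rfl⟩
  have h4 : f ((x * a * x⁻¹)⁻¹ * (g * a * g⁻¹)) = 1 := by
    simp only [map_mul, map_inv, hx1]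
    rw [← h3]
    group
  have h5 : (x * a * x⁻¹)⁻¹ * (g * a * g⁻¹) ∈ (S : Subgroup G) :=
    Subgroup.mul_mem _ (Subgroup.inv_mem _ (hx3 (conj_mem_cj ha))) (hgA (conj_mem_cj ha))
  obtain ⟨k, hk⟩ := S.2 ⟨_, h5⟩
  have h6 := hker _ h4 ⟨k, congrArg Subtype.val hk⟩
  rw [inv_mul_eq_one] at h6
  exact h6

end

/-- **Main theorem**: induction over sections. -/
theorem ctl_main {p : ℕ} [hp : Fact p.Prime] (hp2 : p ≠ 2) {W : ∀ (X : Type u) [Group X], Subgroup X}
    (hW : GoodFun p W) : ∀ (n : ℕ) (G : Type u) [Group G] [Finite G], Nat.card G = n →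
      ¬ Involves ↥(qd p) G → ∀ (S : Sylow p G) (D : Subgroup G), IsStronglyClosed D (S : Subgroup G) →
      Ctl (S : Subgroup G) (rel W D) := by
  classical
  intro n
  induction n using Nat.strong_induction_on with
  | _ n ih =>
  intro G _ _ hcard hfree S D hD
  -- proper subgroups
  have hsub : ∀ (H R : Subgroup G), H ≠ ⊤ → IsSyl p R H → R ≤ (S : Subgroup G) → D ⊓ H ≤ R →
      ∀ A ≤ R, ∀ y ∈ H, cj y A ≤ R →
      ∃ n ∈ H ⊓ Subgroup.normalizer ((rel W (D ⊓ H) : Subgroup G) : Set G),
        ∀ a ∈ A, n * a * n⁻¹ = y * a * y⁻¹ := by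
    intro H R hH hR hRS hDR
    refine ctl_sub hW.nat H R D hR.1 ?_
    have hlt : Nat.card H < n := by
      rw [← hcard]
      have := card_lt_card_of_lt (lt_top_iff_ne_top.2 hH)
      rwa [Subgroup.card_top] at this
    have hDR' : IsStronglyClosed (D.subgroupOf H) (R.subgroupOf H) := by
      refine ⟨fun x hx => Subgroup.mem_subgroupOf.2 (hDR ⟨Subgroup.mem_subgroupOf.1 hx, x.2⟩), ?_⟩
      intro x hx y hy
      exact Subgroup.mem_subgroupOf.2 (hD.2 x (Subgroup.mem_subgroupOf.1 hx) y (hRS hy))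
    exact ih _ hlt H rfl (fun h => hfree (H46.involves_of_subgroup h)) hR.toSylow (D.subgroupOf H) hDR'
  -- proper quotients
  have hquot : ∀ (N : Subgroup G) [N.Normal], N ≠ ⊥ → ∀ (S' : Sylow p (G ⧸ N)) (D' : Subgroup (G ⧸ N)),
      IsStronglyClosed D' (S' : Subgroup (G ⧸ N)) → Ctl (S' : Subgroup (G ⧸ N)) (rel W D') := by
    intro N _ hN S' D' hD'
    refine ih (Nat.card (G ⧸ N)) ?_ (G ⧸ N) rfl (fun h => hfree
      (H46.involves_of_surj h (QuotientGroup.mk' N) (QuotientGroup.mk'_surjective N))) S' D' hD'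
    rw [← hcard, ← Subgroup.card_mul_index N, Subgroup.index]
    have h1 : 1 < Nat.card N := by
      rw [Subgroup.one_lt_card_iff_ne_bot]; exact hN
    have h2 : 0 < Nat.card (G ⧸ N) := Nat.card_pos
    nlinarith
  have hSq : ∀ (N : Subgroup G) [N.Normal], IsSyl p ((S : Subgroup G).map (QuotientGroup.mk' N))
      (⊤ : Subgroup (G ⧸ N)) := by
    intro N _
    have := (isSyl_top S).map (QuotientGroup.mk' N)
    rwa [← MonoidHom.range_eq_map, MonoidHom.range_eq_top_of_surjective _
      (QuotientGroup.mk'_surjective N)] at this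
  by_cases hD1 : D = ⊥
  · refine ctl_of_normal _ _ ?_
    have h1 : rel W D = ⊥ := le_bot_iff.mp ((rel_le W D).trans hD1.le)
    rw [h1]; infer_instance
  -- step 1
  by_cases hO : Cfsg.pPrimeCore p G = ⊥
  swap
  · have hcop := Cfsg.Agent.Solv.pPrimeCore_card_coprime (G := G) p
    refine ctl_quotient_pprime hW S hD (Cfsg.pPrimeCore p G) hcop ?_
    exact hquot (Cfsg.pPrimeCore p G) hO (hSq _).topSylow _ (isStronglyClosed_map _ hcop S hD)
  -- step 2
  by_cases hQ1 : Cfsg.pCore p G = ⊥
  · refine ctl_of_local hW S hD hD1 ?_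
    intro T hTS hT1 hsyl
    refine hsub _ _ ?_ hsyl inf_le_left ?_
    · intro hn
      apply hT1
      rw [← le_bot_iff, ← hQ1]
      exact NonCons.norm_of_normal_p (isPGroup_sub S.2 hTS) hn
    · exact inf_le_inf_right _ hD.1
  -- step 3
  by_cases hcen : (S : Subgroup G) ⊓ Subgroup.centralizer ((Cfsg.pCore p G : Subgroup G) : Set G) ≤
      Cfsg.pCore p G
  · refine ctl_of_normal _ _ (hW.zj G S D hD (cent_pCore_le S hO hcen) ?_)
    intro P hPn hPp a ha
    by_contra hcon
    exact hfree (H11.involves_qd_of_not_stable hp2 P hPp a (H11.Quad.of_comm ha) hcon)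
  -- the main case
  obtain ⟨Q, hQ⟩ : ∃ Q, Q = Cfsg.pCore p G := ⟨_, rfl⟩
  obtain ⟨L, hL⟩ : ∃ L, L = Q ⊔ Subgroup.centralizer (Q : Set G) := ⟨_, rfl⟩
  obtain ⟨P₁, hP₁⟩ : ∃ P₁, P₁ = (S : Subgroup G) ⊓ L := ⟨_, rfl⟩
  have nc : NonCons p S Q L P₁ := ⟨hQ, hL, hP₁, by rw [hQ]; exact hcen⟩
  haveI hQn := nc.normalQ
  haveI hLn := nc.normalL
  by_cases hDQ : D ≤ Q
  · refine ctl_of_normal _ _ ?_
    have hDn : D.Normal := IsStronglyClosed.normal_of_le hD nc.QS hDQ
    have h1 := normalizer_le_normalizer_rel hW.nat D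
    rw [Subgroup.normalizer_eq_top_iff.2 hDn] at h1
    exact Subgroup.normalizer_eq_top_iff.1 (top_le_iff.1 h1)
  have hQS : Q < (S : Subgroup G) := by
    refine lt_of_le_of_ne nc.QS ?_
    rintro he
    exact nc.not_PQ (by rw [he]; exact nc.PS)
  -- control by proper overgroups of `S`
  have hprop : ∀ K : Subgroup G, (S : Subgroup G) ≤ K → K ≠ ⊤ → ∀ A ≤ (S : Subgroup G), ∀ h ∈ K,
      cj h A ≤ (S : Subgroup G) → ∃ n ∈ Subgroup.normalizer ((rel W D : Subgroup G) : Set G),
        ∀ a ∈ A, n * a * n⁻¹ = h * a * h⁻¹ := by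
    intro K hSK hK A hA h hh hhA
    have hDK : D ⊓ K = D := inf_eq_left.2 (hD.1.trans hSK)
    obtain ⟨n, hn, hna⟩ := hsub K S hK ((isSyl_top S).mono hSK le_top) le_rfl (by rw [hDK]; exact hD.1)
      A hA h hh hhA
    rw [hDK] at hn
    exact ⟨n, hn.2, hna⟩
  refine alperin_abstract S Q nc.QS
    (fun X g => ∃ n ∈ Subgroup.normalizer ((rel W D : Subgroup G) : Set G), ∀ x ∈ X, n * x * n⁻¹ = g * x * g⁻¹)
    ?_ ?_ ?_ ?_ ?_
  · rintro A' B g hle _ _ ⟨n, hn, h⟩
    exact ⟨n, hn, fun x hx => h x (hle hx)⟩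
  · rintro B g h _ _ _ ⟨n, hn, h1⟩ ⟨m, hm, h2⟩
    refine ⟨m * n, mul_mem hm hn, fun x hx => ?_⟩
    have h3 := h2 _ (conj_mem_cj (g := g) hx)
    calc m * n * x * (m * n)⁻¹ = m * (n * x * n⁻¹) * m⁻¹ := by group
      _ = m * (g * x * g⁻¹) * m⁻¹ := by rw [h1 x hx]
      _ = h * g * x * (h * g)⁻¹ := by rw [h3]; group
  · rintro B g _ _ ⟨n, hn, h1⟩
    refine ⟨n⁻¹, inv_mem hn, fun x hx => ?_⟩
    have h2 := h1 _ (mem_cj.1 hx)
    have h3 : x = n * (g⁻¹ * x * g) * n⁻¹ := by rw [h2]; group
    conv_lhs => rw [h3]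
    group
  · intro g hg
    exact hprop _ Subgroup.le_normalizer nc.NS_ne S le_rfl g hg (le_of_eq (mem_norm_iff.1 hg))
  · intro A hQA hAS IH
    obtain ⟨a, ha1, ha2⟩ := domain_fullyNormalized S A
    obtain ⟨U, hU⟩ : ∃ U, U = cj a A := ⟨_, rfl⟩
    rw [← hU] at ha2
    have hUS : U ≤ (S : Subgroup G) := by
      rw [hU]; exact (cj_mono (le_inf hAS.le Subgroup.le_normalizer)).trans ha1
    have hQU : Q ≤ U := by
      have := cj_mono (g := a) hQA
      rwa [cj_normal, ← hU] at this
    have hcardU : Nat.card U = Nat.card A := by rw [hU, card_cj]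
    rw [← hcardU] at IH
    refine ⟨a, by rw [← hU]; exact hUS, by rw [← hU]; exact ha2, ?_⟩
    rw [← hU]
    intro y hy
    have hyU : cj y U = U := mem_norm_iff.1 hy
    by_cases hLS : L ⊔ (S : Subgroup G) = ⊤
    · -- `G = L S`
      have hp'Q : ∀ x : G, (orderOf x).Coprime p → x ∈ Subgroup.centralizer (Q : Set G) := by
        intro x hx
        set C : Subgroup G := Subgroup.centralizer (Q : Set G) with hC
        haveI : C.Normal := inferInstance
        have h1 : C ⊔ (S : Subgroup G) = ⊤ := by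
          rw [← hLS, hL, sup_comm Q C, sup_assoc, sup_eq_right.2 nc.QS]
        have h2 : IsPGroup p (G ⧸ C) := by
          have h3 : Function.Surjective ((QuotientGroup.mk' C).comp (S : Subgroup G).subtype) := by
            intro z
            obtain ⟨g, rfl⟩ := QuotientGroup.mk'_surjective C z
            have hg : g ∈ (S : Subgroup G) ⊔ C := by rw [sup_comm, h1]; trivial
            obtain ⟨s, hs, c, hc, rfl⟩ := (mem_sup_right_norm (by
              rw [Subgroup.normalizer_eq_top]; exact le_top)).1 hg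
            refine ⟨⟨s, hs⟩, ?_⟩
            show QuotientGroup.mk' C s = QuotientGroup.mk' C (s * c)
            rw [map_mul, show QuotientGroup.mk' C c = 1 from (QuotientGroup.eq_one_iff c).2 hc, mul_one]
          exact S.2.of_surjective _ h3
        have h3 := Cfsg.Agent.Transfer.map_eq_one_of_coprime_of_isPGroup h2 (QuotientGroup.mk' C) hx
        exact (QuotientGroup.eq_one_iff x).1 h3
      set f := QuotientGroup.mk' Q with hf
      have hker : f.ker = Q := QuotientGroup.ker_mk' Q
      have hsurj : Function.Surjective f := QuotientGroup.mk'_surjective Q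
      have hQne : Q ≠ ⊥ := by rw [hQ]; exact hQ1
      have hDf : IsStronglyClosed (D.map f) ((S : Subgroup G).map f) := isStronglyClosed_map_of_le hD Q nc.QS
      have hc := hquot Q hQne (hSq Q).topSylow (D.map f) hDf
      have h1 : cj (f y) (U.map f) ≤ (S : Subgroup G).map f := by
        rw [← map_cj]; exact Subgroup.map_mono (by rw [hyU]; exact hUS)
      obtain ⟨x', hx', hx'a⟩ := hc (U.map f) (Subgroup.map_mono hUS) (f y) h1
      obtain ⟨y', rfl⟩ := hsurj x'
      -- the proper overgroup of `S`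
      have hSK : (S : Subgroup G) ≤ (Subgroup.normalizer ((rel W (D.map f) : Subgroup (G ⧸ Q)) :
          Set (G ⧸ Q))).comap f := by
        rw [← Subgroup.map_le_iff_le_comap]
        exact (Cfsg.Agent.H51.IsStronglyClosed.le_normalizer hDf).trans
          (normalizer_le_normalizer_rel hW.nat _)
      have hKne : (Subgroup.normalizer ((rel W (D.map f) : Subgroup (G ⧸ Q)) :
          Set (G ⧸ Q))).comap f ≠ ⊤ := by
        intro htop
        have hn1 : Subgroup.normalizer ((rel W (D.map f) : Subgroup (G ⧸ Q)) : Set (G ⧸ Q)) = ⊤ := by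
          rw [← Subgroup.map_comap_eq_self_of_surjective hsurj (Subgroup.normalizer _), htop,
            ← MonoidHom.range_eq_map, MonoidHom.range_eq_top_of_surjective _ hsurj]
        have hn2 : (rel W (D.map f)).Normal := Subgroup.normalizer_eq_top_iff.1 hn1
        have hn3 : ((rel W (D.map f)).comap f).Normal := inferInstance
        have hle : (rel W (D.map f)).comap f ≤ (S : Subgroup G) := by
          refine (Subgroup.comap_mono ((rel_le W _).trans (Subgroup.map_mono hD.1))).trans ?_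
          rw [Subgroup.comap_map_eq, hker]
          exact sup_le le_rfl nc.QS
        have hle2 : (rel W (D.map f)).comap f ≤ Q :=
          (Cfsg.Agent.Solv.le_pCore hn3 (isPGroup_sub S.2 hle)).trans hQ.ge
        have hbot : rel W (D.map f) = ⊥ := by
          rw [← Subgroup.map_comap_eq_self_of_surjective hsurj (rel W (D.map f)),
            Subgroup.map_eq_bot_iff, hker]
          exact hle2
        have hDp : IsPGroup p ↥(D.map f) := (isPGroup_sub S.2 hD.1).map f
        refine rel_ne_bot hW hDp ?_ hbot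
        intro h0
        rw [Subgroup.map_eq_bot_iff, hker] at h0
        exact hDQ h0
      have hy2 : ∀ u ∈ U, f (y' * u * y'⁻¹) = f y * f u * (f y)⁻¹ := by
        intro u hu
        have := hx'a (f u) ⟨u, hu, rfl⟩
        simp only [map_mul, map_inv]
        exact this
      have hy'U : cj y' U = U := by
        have h3 : (cj y' U).map f ≤ U.map f := by
          rintro _ ⟨z, hz, rfl⟩
          obtain ⟨u, hu, rfl⟩ := hz
          have h4 := hy2 u hu
          simp only [MulEquiv.coe_toMonoidHom, MulAut.conj_apply]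
          rw [h4]
          refine ⟨y * u * y⁻¹, ?_, by simp⟩
          rw [← hyU]; exact conj_mem_cj hu
        have h4 := Subgroup.comap_mono (f := f) h3
        rw [Subgroup.comap_map_eq, Subgroup.comap_map_eq, hker] at h4
        exact cj_eq_of_le (le_sup_left.trans (h4.trans (sup_le le_rfl hQU)))
      obtain ⟨n₁, hn₁, hn₁a⟩ := hprop _ hSK hKne U hUS y' hx' (by rw [hy'U]; exact hUS)
      have hy' : y' ∈ Subgroup.normalizer (U : Set G) := mem_norm_iff.2 hy'U
      obtain ⟨E, hE⟩ : ∃ E : Subgroup G, E = Subgroup.normalizer (U : Set G) ⊓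
        (Subgroup.centralizer ((U.map f : Subgroup (G ⧸ Q)) : Set (G ⧸ Q))).comap f := ⟨_, rfl⟩
      have hdE : y * y'⁻¹ ∈ E := by
        rw [hE]
        refine Subgroup.mem_inf.2 ⟨Subgroup.mul_mem _ hy (Subgroup.inv_mem _ hy'), Subgroup.mem_comap.2 ?_⟩
        rw [Subgroup.mem_centralizer_iff]
        rintro _ ⟨u, hu, rfl⟩
        have h3 : y'⁻¹ * u * y' ∈ U := by
          have : u ∈ cj y' U := by rw [hy'U]; exact hu
          exact mem_cj.1 this
        have h4 := hy2 _ h3
        have e1 : y' * (y'⁻¹ * u * y') * y'⁻¹ = u := by group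
        rw [e1] at h4
        simp only [map_mul, map_inv] at h4 ⊢
        have h5 : f u = f y * (f y')⁻¹ * f u * f y' * (f y)⁻¹ := h4.trans (by group)
        calc f u * (f y * (f y')⁻¹) =
            (f y * (f y')⁻¹ * f u * f y' * (f y)⁻¹) * (f y * (f y')⁻¹) := by rw [← h5]
          _ = f y * (f y')⁻¹ * f u := by group
      have hEN : Subgroup.normalizer (U : Set G) ≤ Subgroup.normalizer (E : Set G) := by
        intro n hn
        rw [hE]
        refine norm_inf (Subgroup.le_normalizer hn) ?_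
        rw [← Subgroup.comap_normalizer_eq_of_surjective _ hsurj]
        rw [Subgroup.mem_comap]
        refine norm_le_norm_cent _ ?_
        rw [mem_norm_iff, ← map_cj, mem_norm_iff.1 hn]
      have hSE : IsSyl p (nS (S : Subgroup G) U ⊓ E) E := by
        refine ha2.inf_normal ?_ hEN
        rw [hE]; exact inf_le_left
      have hCE : Subgroup.centralizer (U : Set G) ≤ E := by
        rw [hE]
        refine le_inf (cent_le_norm' U) ?_
        intro c hc
        rw [Subgroup.mem_comap, Subgroup.mem_centralizer_iff]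
        rintro _ ⟨u, hu, rfl⟩
        rw [← map_mul, ← map_mul, Subgroup.mem_centralizer_iff.1 hc u hu]
      obtain ⟨c, hcC, s, hs, hcs⟩ := hSE.sup_eq hCE (by
        refine le_trans ?_ (norm_le_norm_cent U)
        rw [hE]; exact inf_le_left) (by
        intro x hx hxp
        rw [Subgroup.mem_centralizer_iff]
        intro u hu
        have hx1 : x ∈ Subgroup.centralizer (Q : Set G) := hp'Q x hxp
        rw [hE] at hx
        have h3 := (Subgroup.mem_centralizer_iff.1 hx.2) (f u) ⟨u, hu, rfl⟩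
        have h4 : x * u * x⁻¹ * u⁻¹ ∈ Q := by
          rw [← hker, MonoidHom.mem_ker]
          simp only [map_mul, map_inv]
          rw [← h3]; group
        set q := x * u * x⁻¹ * u⁻¹ with hq
        have hxq : x * q = q * x := (Subgroup.mem_centralizer_iff.1 hx1 q h4).symm
        have h5 : ∀ k : ℕ, x ^ k * u * (x ^ k)⁻¹ = q ^ k * u := by
          intro k
          induction k with
          | zero => simp
          | succ k ih =>
            have hcomm : Commute x (q ^ k) := (show Commute x q from hxq).pow_right k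
            calc x ^ (k + 1) * u * (x ^ (k + 1))⁻¹ = x * (x ^ k * u * (x ^ k)⁻¹) * x⁻¹ := by
                  rw [pow_succ']; group
              _ = x * (q ^ k * u) * x⁻¹ := by rw [ih]
              _ = (x * q ^ k) * u * x⁻¹ := by group
              _ = (q ^ k * x) * u * x⁻¹ := by rw [hcomm.eq]
              _ = q ^ k * (x * u * x⁻¹ * u⁻¹) * u := by group
              _ = q ^ (k + 1) * u := by rw [← hq, pow_succ]
        have h6 : q ^ orderOf x = 1 := by
          have := h5 (orderOf x)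
          rw [pow_orderOf_eq_one] at this
          simpa using this
        have h7 : q = 1 := by
          obtain ⟨k, hk⟩ := (isPGroup_sub S.2 nc.QS) ⟨q, h4⟩
          have hk' : q ^ p ^ k = 1 := congrArg Subtype.val hk
          rw [← orderOf_eq_one_iff]
          exact Nat.Coprime.eq_one_of_dvd (Nat.Coprime.pow_right k
            (Nat.Coprime.coprime_dvd_left (orderOf_dvd_of_pow_eq_one h6) hxp))
            (orderOf_dvd_of_pow_eq_one hk')
        rw [hq] at h7
        rw [mul_inv_eq_one] at h7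
        calc u * x = (x * u * x⁻¹) * x := by rw [h7]
          _ = x * u := by group) _ hdE
      have hsS : s ∈ (S : Subgroup G) := hs.1.1
      have hsU : cj s U = U := mem_norm_iff.1 hs.1.2
      obtain ⟨n₂, hn₂, hn₂a⟩ := hprop _ nc.SM nc.M_ne U hUS s (nc.SM hsS) (by rw [hsU]; exact hUS)
      refine ⟨n₂ * n₁, mul_mem hn₂ hn₁, fun u hu => ?_⟩
      have hyy : y = c * (s * y') := by
        have : y = (y * y'⁻¹) * y' := by group
        rw [this, hcs]; group
      have h0 : y' * u * y'⁻¹ ∈ U := by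
        have h6 : y' * u * y'⁻¹ ∈ cj y' U := conj_mem_cj hu
        rwa [hy'U] at h6
      have h5 : s * (y' * u * y'⁻¹) * s⁻¹ ∈ U := by
        have h6 : s * (y' * u * y'⁻¹) * s⁻¹ ∈ cj s U := conj_mem_cj h0
        rwa [hsU] at h6
      have h6 := Subgroup.mem_centralizer_iff.1 hcC _ h5
      calc n₂ * n₁ * u * (n₂ * n₁)⁻¹ = n₂ * (n₁ * u * n₁⁻¹) * n₂⁻¹ := by group
        _ = n₂ * (y' * u * y'⁻¹) * n₂⁻¹ := by rw [hn₁a u hu]
        _ = s * (y' * u * y'⁻¹) * s⁻¹ := hn₂a _ h0
        _ = (s * (y' * u * y'⁻¹) * s⁻¹) * c * c⁻¹ := by group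
        _ = c * (s * (y' * u * y'⁻¹) * s⁻¹) * c⁻¹ := by rw [h6]
        _ = y * u * y⁻¹ := by rw [hyy]; group
    · -- `L S < G`
      obtain ⟨N, hN⟩ : ∃ N : Subgroup G, N = L ⊓ Subgroup.normalizer (U : Set G) := ⟨_, rfl⟩
      have hNN : Subgroup.normalizer (U : Set G) ≤ Subgroup.normalizer (N : Set G) := by
        intro n hn
        rw [hN]
        refine norm_inf ?_ (Subgroup.le_normalizer hn)
        rw [Subgroup.normalizer_eq_top]; trivial
      have hB : IsSyl p (nS (S : Subgroup G) U ⊓ N) N := by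
        refine ha2.inf_normal ?_ hNN
        rw [hN]; exact inf_le_right
      obtain ⟨B, hBdef⟩ : ∃ B : Subgroup G, B = nS (S : Subgroup G) U ⊓ N := ⟨_, rfl⟩
      rw [← hBdef] at hB
      obtain ⟨n, hn, hny⟩ := hB.frattini (hNN hy)
      have hnN : n ∈ Subgroup.normalizer (U : Set G) := by rw [hN] at hn; exact hn.2
      have hnL : n ∈ L := by rw [hN] at hn; exact hn.1
      have hBS : B ≤ (S : Subgroup G) := by rw [hBdef]; exact inf_le_left.trans inf_le_left
      have hkey : ∃ m ∈ Subgroup.normalizer ((rel W D : Subgroup G) : Set G),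
          ∀ u ∈ U, m * u * m⁻¹ = (n * y) * u * (n * y)⁻¹ := by
        by_cases hBU : B ≤ U
        · -- then P₁ ≤ U
          have hP₁U : P₁ ≤ U := by
            by_contra hnot
            have hlt : U < U ⊔ P₁ := by
              refine lt_of_le_of_ne le_sup_left ?_
              intro he
              exact hnot (le_sup_right.trans (le_of_eq he.symm))
            have h3 := lt_inf_normalizer (isPGroup_sub S.2 (sup_le hUS nc.PS)) hlt
            obtain ⟨z, hz, hzU⟩ := SetLike.exists_of_lt h3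
            obtain ⟨u, hu, q, hq, rfl⟩ := (mem_sup_right_norm (hUS.trans nc.SM)).1 hz.1
            apply hzU
            refine U.mul_mem hu (hBU ?_)
            have hqN : q ∈ Subgroup.normalizer (U : Set G) := by
              have := Subgroup.mul_mem _ (Subgroup.inv_mem _ (Subgroup.le_normalizer hu)) hz.2
              rwa [inv_mul_cancel_left] at this
            rw [hBdef, hN]
            exact ⟨⟨nc.PS hq, hqN⟩, nc.PL hq, hqN⟩
          have hUL : U ⊓ L = P₁ := by
            apply le_antisymm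
            · rw [hP₁]; exact inf_le_inf_right _ hUS
            · exact le_inf hP₁U nc.PL
          have hnyU : n * y ∈ Subgroup.normalizer (U : Set G) := Subgroup.mul_mem _ hnN hy
          have hnyM : n * y ∈ Subgroup.normalizer (P₁ : Set G) := by
            rw [← hUL]
            refine norm_inf hnyU ?_
            rw [Subgroup.normalizer_eq_top]; trivial
          refine hprop _ nc.SM nc.M_ne U hUS _ hnyM ?_
          rw [mem_norm_iff.1 hnyU]; exact hUS
        · have hlt : U < U ⊔ B := by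
            refine lt_of_le_of_ne le_sup_left ?_
            intro he
            exact hBU (le_sup_right.trans (le_of_eq he.symm))
          have hny2 : n * y ∈ Subgroup.normalizer ((U ⊔ B : Subgroup G) : Set G) :=
            norm_sup (Subgroup.mul_mem _ hnN hy) hny
          obtain ⟨m, hm, hma⟩ := IH (U ⊔ B) (sup_le hUS hBS) (card_lt_card_of_lt hlt) (n * y) (by
            rw [mem_norm_iff.1 hny2]; exact sup_le hUS hBS)
          exact ⟨m, hm, fun u hu => hma u (Subgroup.mem_sup_left hu)⟩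
      obtain ⟨m₁, hm₁, hm₁a⟩ := hkey
      have e1 : cj (n * y) U = U := by rw [cj_mul, hyU, mem_norm_iff.1 hnN]
      obtain ⟨m₂, hm₂, hm₂a⟩ := hprop _ le_sup_right hLS U hUS n⁻¹ (Subgroup.mem_sup_left (L.inv_mem hnL)) (by
        rw [mem_norm_iff.1 (Subgroup.inv_mem _ hnN)]; exact hUS)
      refine ⟨m₂ * m₁, mul_mem hm₂ hm₁, fun u hu => ?_⟩
      have h0 : (n * y) * u * (n * y)⁻¹ ∈ U := by
        have h6 : (n * y) * u * (n * y)⁻¹ ∈ cj (n * y) U := conj_mem_cj hu
        rwa [e1] at h6
      calc m₂ * m₁ * u * (m₂ * m₁)⁻¹ = m₂ * (m₁ * u * m₁⁻¹) * m₂⁻¹ := by group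
        _ = m₂ * ((n * y) * u * (n * y)⁻¹) * m₂⁻¹ := by rw [hm₁a u hu]
        _ = n⁻¹ * ((n * y) * u * (n * y)⁻¹) * n⁻¹⁻¹ := hm₂a _ h0
        _ = y * u * y⁻¹ := by group

/-- In a group with no `Qd(p)` section, `N_G(W(D))` controls strong fusion. -/
theorem controls_of_free {p : ℕ} [Fact p.Prime] (hp2 : p ≠ 2) {W : ∀ (X : Type u) [Group X], Subgroup X}
    (hW : GoodFun p W) {G : Type u} [Group G] [Finite G] (hfree : ¬ Involves ↥(qd p) G) (S : Sylow p G)
    (D : Subgroup G) (hD : IsStronglyClosed D (S : Subgroup G)) (A : Set G) (hA : A ⊆ (S : Subgroup G)) :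
    ControlsStrongFusionOf (Subgroup.normalizer ((rel W D : Subgroup G) : Set G)) (S : Subgroup G) A := by
  refine ⟨hA, fun g hg => ?_⟩
  obtain ⟨n, hn, hna⟩ := ctl_main hp2 hW _ G rfl hfree S D hD (Subgroup.closure A)
    ((Subgroup.closure_le _).2 hA) g (by
      rw [cj_closure]
      exact (Subgroup.closure_le _).2 hg)
  exact ⟨n, hn, fun a ha => (hna a (Subgroup.subset_closure ha)).symm⟩

end Cfsg.Agent.QdInv
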