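import Cfsg.Agent.QdInv.LocalGlobal
/-!
Local-to-global control of strong fusion by a pair of functors `W`, `V` (S2002).
-/
set_option autoImplicit false
set_option linter.all false

namespace Cfsg.Agent.QdInv

open Cfsg Cfsg.Agent.H33

variable {G : Type*} [Group G] {p : ℕ}

/-- the property of S2002, for a Sylow subgroup `Q` of `L` and two subgroups `N`, `C` -/
def RCtl (L Q N C : Subgroup G) : Prop :=
  ∀ (X : Set G) (a : G), X ⊆ Q → a ∈ L → (fun x => a⁻¹ * x * a) '' X ⊆ Q →
    ∃ c ∈ L ⊓ Subgroup.centralizer X, ∃ (n : ℕ) (b : Fin n → G),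
      (∀ i, b i ∈ L ⊓ N ∨ b i ∈ L ⊓ C) ∧ a = c * (List.ofFn b).prod ∧
      ∀ k : ℕ, k ≤ n → (fun x => (((List.ofFn b).take k).prod)⁻¹ * x * ((List.ofFn b).take k).prod) ''
        ((fun x => c⁻¹ * x * c) '' X) ⊆ Q

theorem SFc_of_list {𝒩 : Set (Subgroup G)} {S : Subgroup G} : ∀ (l : List G) (A : Subgroup G),
    (∀ b ∈ l, ∃ N ∈ 𝒩, b ∈ N) →
    (∀ k ≤ l.length, cj ((l.take k).prod)⁻¹ A ≤ S) → SFc 𝒩 S A (l.prod)⁻¹ := by
  intro l
  induction l with
  | nil =>
    intro A _ h
    have h0 := h 0 le_rfl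
    simp only [List.take_zero, List.prod_nil, inv_one, cj_one] at h0
    simp only [List.prod_nil, inv_one]
    exact SFc.base A 1 h0 (by simp)
  | cons b l ih =>
    intro A hb h
    obtain ⟨N, hN, hbN⟩ := hb b (by simp)
    have h0 := h 0 (by simp)
    simp only [List.take_zero, List.prod_nil, inv_one, cj_one] at h0
    have h1 : SFc 𝒩 S (cj b⁻¹ A) (l.prod)⁻¹ := by
      refine ih (cj b⁻¹ A) (fun x hx => hb x (by simp [hx])) ?_
      intro k hk
      have := h (k + 1) (by simpa using hk)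
      rw [List.take_succ_cons, List.prod_cons, mul_inv_rev, cj_mul] at this
      exact this
    rw [List.prod_cons, mul_inv_rev]
    exact SFc.step A N b⁻¹ _ hN (N.inv_mem hbN) h0 h1

theorem list_of_SFc {𝒩 : Set (Subgroup G)} {S A : Subgroup G} {g : G} (h : SFc 𝒩 S A g) :
    ∃ l : List G, (∀ b ∈ l, ∃ N ∈ 𝒩, b ∈ N) ∧
      (∀ k ≤ l.length, cj ((l.take k).prod)⁻¹ A ≤ S) ∧
      ∀ a ∈ A, (l.prod)⁻¹ * a * l.prod = g * a * g⁻¹ := by
  induction h with
  | base A g hA h =>
    refine ⟨[], by simp, ?_, ?_⟩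
    · intro k hk
      simp only [List.take_nil, List.prod_nil, inv_one, cj_one]
      exact hA
    · intro a ha
      rw [h a ha]; simp
  | step A N x g hN hx hA h ih =>
    obtain ⟨l, h1, h2, h3⟩ := ih
    refine ⟨x⁻¹ :: l, ?_, ?_, ?_⟩
    · intro b hb
      rcases List.mem_cons.1 hb with rfl | hb
      · exact ⟨N, hN, N.inv_mem hx⟩
      · exact h1 b hb
    · intro k hk
      cases k with
      | zero => simpa using hA
      | succ k =>
        rw [List.take_succ_cons, List.prod_cons, mul_inv_rev, inv_inv, cj_mul]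
        exact h2 k (by simpa using hk)
    · intro a ha
      have h4 := h3 _ (conj_mem_cj (g := x) ha)
      rw [List.prod_cons]
      calc (x⁻¹ * l.prod)⁻¹ * a * (x⁻¹ * l.prod) = (l.prod)⁻¹ * (x * a * x⁻¹) * l.prod := by group
        _ = g * (x * a * x⁻¹) * g⁻¹ := h4
        _ = g * x * a * (g * x)⁻¹ := by group

theorem rctl_iff {L Q N C : Subgroup G} :
    RCtl L Q N C ↔ ∀ A ≤ Q, ∀ g ∈ L, cj g A ≤ Q → SFc {L ⊓ N, L ⊓ C} Q A g := by
  constructor
  · intro h A hA g hg hgA
    obtain ⟨c, hc, n, b, hb, ha, hk⟩ := h (A : Set G) g⁻¹ hA (L.inv_mem hg) (by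
      rintro _ ⟨x, hx, rfl⟩
      have := hgA (conj_mem_cj (g := g) hx)
      simpa using this)
    have hcc := Subgroup.mem_centralizer_iff.1 hc.2
    have hcA : ∀ x ∈ A, c⁻¹ * x * c = x := by
      intro x hx
      have := hcc x hx
      rw [mul_assoc, this]; group
    have hset : (fun x => c⁻¹ * x * c) '' (A : Set G) = (A : Set G) := by
      ext x
      constructor
      · rintro ⟨y, hy, rfl⟩
        simp only
        rw [hcA y hy]; exact hy
      · intro hx
        exact ⟨x, hx, hcA x hx⟩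
    have h1 : SFc {L ⊓ N, L ⊓ C} Q A ((List.ofFn b).prod)⁻¹ := by
      refine SFc_of_list _ A ?_ ?_
      · intro x hx
        rw [List.mem_ofFn] at hx
        obtain ⟨i, rfl⟩ := hx
        rcases hb i with h2 | h2
        · exact ⟨_, Or.inl rfl, h2⟩
        · exact ⟨_, Or.inr rfl, h2⟩
      · intro k hk'
        rw [List.length_ofFn] at hk'
        have h2 := hk k hk'
        rw [hset] at h2
        rw [cj_le_iff]
        intro x hx
        have h3 := h2 ⟨x, hx, rfl⟩
        simpa using h3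
    refine h1.congr ?_
    intro x hx
    have hg' : g = ((List.ofFn b).prod)⁻¹ * c⁻¹ := by
      rw [← inv_inj, ha]; group
    have h5 := hcA x hx
    rw [hg']
    calc ((List.ofFn b).prod)⁻¹ * c⁻¹ * x * (((List.ofFn b).prod)⁻¹ * c⁻¹)⁻¹ =
        ((List.ofFn b).prod)⁻¹ * (c⁻¹ * x * c) * (((List.ofFn b).prod)⁻¹)⁻¹ := by group
      _ = _ := by rw [h5]
  · intro h X a hX ha haX
    have h1 := h (Subgroup.closure X) ((Subgroup.closure_le _).2 hX) a⁻¹ (L.inv_mem ha) (by
      rw [cj_closure]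
      refine (Subgroup.closure_le _).2 ?_
      rintro _ ⟨x, hx, rfl⟩
      have := haX ⟨x, hx, rfl⟩
      simpa using this)
    obtain ⟨l, h2, h3, h4⟩ := list_of_SFc h1
    have hlL : l.prod ∈ L := by
      apply Subgroup.list_prod_mem
      intro x hx
      obtain ⟨N', hN', hx'⟩ := h2 x hx
      rcases hN' with rfl | rfl
      · exact hx'.1
      · exact hx'.1
    have hofn : List.ofFn (fun i : Fin l.length => l.get i) = l := List.ofFn_get l
    have hcX : ∀ x ∈ X, (a * (l.prod)⁻¹)⁻¹ * x * (a * (l.prod)⁻¹) = x := by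
      intro x hx
      have h5 := h4 x (Subgroup.subset_closure hx)
      have h6 : a⁻¹ * x * a = (l.prod)⁻¹ * x * l.prod := by rw [h5]; group
      calc (a * (l.prod)⁻¹)⁻¹ * x * (a * (l.prod)⁻¹) = l.prod * (a⁻¹ * x * a) * (l.prod)⁻¹ := by group
        _ = x := by rw [h6]; group
    refine ⟨a * (l.prod)⁻¹, ⟨L.mul_mem ha (L.inv_mem hlL), ?_⟩, l.length, fun i => l.get i, ?_, ?_, ?_⟩
    · apply Subgroup.mem_centralizer_iff.2
      intro x hx
      have h5 := hcX x hx
      calc x * (a * (l.prod)⁻¹) = (a * (l.prod)⁻¹) * ((a * (l.prod)⁻¹)⁻¹ * x * (a * (l.prod)⁻¹)) := by group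
        _ = _ := by rw [h5]
    · intro i
      obtain ⟨N', hN', hx'⟩ := h2 (l.get i) (List.get_mem l i)
      rcases hN' with rfl | rfl
      · exact Or.inl hx'
      · exact Or.inr hx'
    · rw [hofn]; group
    · intro k hk
      rw [hofn]
      rintro _ ⟨_, ⟨x, hx, rfl⟩, rfl⟩
      simp only
      rw [hcX x hx]
      have h5 := h3 k hk (conj_mem_cj (Subgroup.subset_closure hx))
      simpa using h5

theorem rctl_conj {L Q N C : Subgroup G} (h : RCtl L Q N C) (y : G) :
    RCtl (cj y L) (cj y Q) (cj y N) (cj y C) := by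
  rw [rctl_iff] at h ⊢
  intro A hA k hk hkA
  have h1 : cj y⁻¹ A ≤ Q := by rw [cj_le_iff_le_cj, inv_inv]; exact hA
  have h2 : y⁻¹ * k * y ∈ L := mem_cj.1 hk
  have h3 : cj (y⁻¹ * k * y) (cj y⁻¹ A) ≤ Q := by
    rw [← cj_mul, show y⁻¹ * k * y * y⁻¹ = y⁻¹ * k by group, cj_mul, cj_le_iff_le_cj, inv_inv]
    exact hkA
  have h4 := (h _ h1 _ h2 h3).conj y
  rw [cj_cj_inv, show y * (y⁻¹ * k * y) * y⁻¹ = k by group] at h4
  refine h4.mono_fam le_rfl ?_
  rintro _ ⟨M, hM, rfl⟩
  rcases hM with rfl | rfl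
  · exact ⟨_, Or.inl rfl, (cj_inf y L N).le⟩
  · exact ⟨_, Or.inr rfl, (cj_inf y L C).le⟩

/-- the local hypothesis at `T` transported to a prescribed Sylow subgroup and a conjugate of `T` -/
theorem rctl_transport [Finite G] [Fact p.Prime] {W V : Subgroup G → Subgroup G}
    (hW : IsConjugacyFunctor p W) (hV : IsConjugacyFunctor p V) {L Q R : Subgroup G}
    (hQ : IsSyl p Q L) (h : RCtl L Q (Subgroup.normalizer ((W Q : Subgroup G) : Set G))
      (Subgroup.centralizer ((V Q : Subgroup G) : Set G))) (y : G) (hR : IsSyl p R (cj y L)) :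
    RCtl (cj y L) R (Subgroup.normalizer ((W R : Subgroup G) : Set G))
      (Subgroup.centralizer ((V R : Subgroup G) : Set G)) := by
  have h1 := rctl_conj h y
  obtain ⟨x, hx, hxR⟩ := hR.conj_eq (hQ.conj y)
  have h2 := rctl_conj h1 x
  rw [mem_norm_iff.1 (Subgroup.le_normalizer hx), hxR] at h2
  have e : R = cj (x * y) Q := by rw [cj_mul]; exact hxR.symm
  have e1 : W R = cj x (cj y (W Q)) := by
    rw [← cj_mul, e]; exact cf_cj hW hQ.2.1 _
  have e2 : V R = cj x (cj y (V Q)) := by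
    rw [← cj_mul, e]; exact cf_cj hV hQ.2.1 _
  rw [e1, e2, ← cj_normalizer, ← cj_normalizer, ← cj_centralizer, ← cj_centralizer]
  exact h2

theorem wv_local_global [Finite G] [Fact p.Prime] (hdiv : p ∣ Nat.card G) (P : Sylow p G)
    {W V : Subgroup G → Subgroup G} (hW : IsConjugacyFunctor p W) (hV : IsConjugacyFunctor p V)
    (hWZ : ∀ H : Subgroup G, IsPGroup p ↥H → H ⊓ Subgroup.centralizer ((H : Subgroup G) : Set G) ≤ W H)
    (hVmono : ∀ H K : Subgroup G, IsPGroup p ↥H → IsPGroup p ↥K → H ≠ ⊥ → K ≠ ⊥ →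
      H ⊓ Subgroup.centralizer ((H : Subgroup G) : Set G) ≤ K ⊓ Subgroup.centralizer ((K : Subgroup G) : Set G) →
      V H ≤ V K)
    (hloc : ∀ H : Subgroup G, (P : Subgroup G) ⊓ Subgroup.centralizer (((P : Subgroup G) : Subgroup G) : Set G) ≤ H →
      H ≤ (P : Subgroup G) → ∃ Q : Subgroup G, IsSyl p Q (Subgroup.normalizer ((H : Subgroup G) : Set G)) ∧
        RCtl (Subgroup.normalizer ((H : Subgroup G) : Set G)) Q
          (Subgroup.normalizer ((W Q : Subgroup G) : Set G)) (Subgroup.centralizer ((V Q : Subgroup G) : Set G))) :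
    RCtl ⊤ (P : Subgroup G) (Subgroup.normalizer ((W P : Subgroup G) : Set G))
      (Subgroup.centralizer ((V P : Subgroup G) : Set G)) := by
  have hPne : (P : Subgroup G) ≠ ⊥ := P.ne_bot_of_dvd_card hdiv
  have hZne : (P : Subgroup G) ⊓ Subgroup.centralizer ((P : Subgroup G) : Set G) ≠ ⊥ := by
    intro h0
    have h1 : Nontrivial ↥(P : Subgroup G) := (Subgroup.nontrivial_iff_ne_bot _).2 hPne
    have h2 : Nontrivial (Subgroup.center ↥(P : Subgroup G)) := P.2.center_nontrivial
    obtain ⟨z, hz⟩ := exists_ne (1 : Subgroup.center ↥(P : Subgroup G))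
    apply hz
    have h3 : ((z : ↥(P : Subgroup G)) : G) ∈ (P : Subgroup G) ⊓ Subgroup.centralizer ((P : Subgroup G) : Set G) := by
      refine ⟨(z : ↥(P : Subgroup G)).2, Subgroup.mem_centralizer_iff.2 ?_⟩
      intro x hx
      exact congrArg Subtype.val (Subgroup.mem_center_iff.1 z.2 ⟨x, hx⟩)
    rw [h0, Subgroup.mem_bot] at h3
    exact Subtype.ext (Subtype.ext h3)
  rw [rctl_iff]
  have hmain := strong_local_global_Z P {W} (by rintro W' rfl; exact hW)
    (by rintro W' rfl H hH; exact hWZ H hH)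
    {⊤ ⊓ Subgroup.normalizer ((W P : Subgroup G) : Set G), ⊤ ⊓ Subgroup.centralizer ((V P : Subgroup G) : Set G)}
    (by rintro W' rfl; exact ⟨_, Or.inl rfl, by rw [top_inf_eq]⟩) (by
      rintro T hTP ⟨x, hx1, hx2⟩ hsyl
      obtain ⟨Q, hQ, hctl⟩ := hloc _ hx1 hx2
      have e1 : cj x⁻¹ (Subgroup.normalizer ((cj x T : Subgroup G) : Set G)) =
          Subgroup.normalizer ((T : Subgroup G) : Set G) := by
        rw [cj_normalizer, cj_inv_cj]
      have h1 := rctl_transport hW hV hQ hctl x⁻¹ (R := nS (P : Subgroup G) T) (by rw [e1]; exact hsyl)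
      rw [e1, rctl_iff] at h1
      refine ⟨_, ?_, h1⟩
      intro N hN
      rcases hN with rfl | rfl
      · exact Or.inl ⟨W, rfl, le_rfl⟩
      · right
        refine ⟨_, Or.inr rfl, ?_⟩
        rw [top_inf_eq]
        refine inf_le_right.trans (Subgroup.centralizer_le ?_)
        have hZR : (P : Subgroup G) ⊓ Subgroup.centralizer ((P : Subgroup G) : Set G) ≤
            nS (P : Subgroup G) T := by
          refine le_inf inf_le_left (inf_le_right.trans ?_)
          exact (Subgroup.centralizer_le hTP).trans (cent_le_norm' T)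
        have hRne : nS (P : Subgroup G) T ≠ ⊥ := by
          intro h0
          apply hZne
          rw [← le_bot_iff, ← h0]; exact hZR
        refine hVmono _ _ P.2 (isPGroup_nS P.2) hPne hRne (le_inf hZR ?_)
        exact inf_le_right.trans (Subgroup.centralizer_le (inf_le_left : nS (P : Subgroup G) T ≤ P)))
  intro A hA g _ hgA
  exact hmain A hA g hgA

end Cfsg.Agent.QdInv
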